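import Cfsg.Agent.H67.L33.Loc11
import Cfsg.Agent.H67.M11.Crit

set_option autoImplicit false

/-!
# A simplicity criterion for groups of order 5616 (helper67)
-/

namespace Cfsg.Agent.H67.L33

open Subgroup Cfsg

universe u

variable {G : Type u} [Group G] [Finite G]

theorem no_even13 {x : G} (hx : orderOf x = 13) {K : Subgroup G} (hK : x ∈ normalizer (K : Set G))
    (h432 : Nat.card K ∣ 432) (h1 : Nat.card (K ⊓ centralizer ({x} : Set G) : Subgroup G) = 1) : ¬ 2 ∣ Nat.card K := by
  intro h2
  haveI : Fact (Nat.Prime 13) := ⟨by norm_num⟩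
  haveI : Fact (Nat.Prime 2) := ⟨by norm_num⟩
  have hcop : (Nat.card (zpowers x)).Coprime (Nat.card K) := by
    rw [Nat.card_zpowers, hx]
    exact Nat.Coprime.coprime_dvd_right h432 (by norm_num)
  have hsol : Group.IsSolvable (zpowers x) := inferInstance
  obtain ⟨R, hR⟩ := Cop.exists_invariant_sylow (A := zpowers x) (K := K) (by rw [zpowers_le]; exact hK) hcop
    (Or.inl hsol) 2
  have hxR : x ∈ normalizer (((R : Subgroup K).map K.subtype : Subgroup G) : Set G) := hR (mem_zpowers x)
  have hmod := M11.card_inf_centralizer_modEq hx hxR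
  have hcard : Nat.card ((R : Subgroup K).map K.subtype : Subgroup G) = Nat.card (R : Subgroup K) :=
    Subgroup.card_map_of_injective K.subtype_injective
  obtain ⟨n, hn⟩ := IsPGroup.iff_card.mp R.isPGroup'
  have hRdvd : Nat.card (R : Subgroup K) ∣ 432 := (card_subgroup_dvd_card _).trans h432
  have hrR : 2 ∣ Nat.card (R : Subgroup K) := R.dvd_card_of_dvd_card h2
  have hle : ((R : Subgroup K).map K.subtype : Subgroup G) ⊓ centralizer ({x} : Set G) ≤ K ⊓ centralizer ({x} : Set G) :=
    inf_le_inf_right _ (map_subtype_le _)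
  have h1' : Nat.card (((R : Subgroup K).map K.subtype : Subgroup G) ⊓ centralizer ({x} : Set G) : Subgroup G) = 1 := by
    have := card_dvd_of_le hle
    rw [h1] at this
    exact Nat.dvd_one.mp this
  rw [h1', hcard] at hmod
  have h3 : ¬ 3 ∣ Nat.card (R : Subgroup K) := by
    intro h
    rw [hn] at h
    have := Nat.Prime.dvd_of_dvd_pow Nat.prime_three h
    omega
  have key : ∀ d ∈ Nat.divisors 432, (d % 13 = 1 → 2 ∣ d → 3 ∣ d) := by decide +kernel
  exact h3 (key _ (Nat.mem_divisors.mpr ⟨hRdvd, by norm_num⟩) hmod hrR)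

theorem simple_of_graph (hG : Nat.card G = 5616) (hc : ∀ x : G, x ≠ 1 → Nat.card (centralizer ({x} : Set G)) ≤ 54)
    (h13 : ∀ x : G, orderOf x = 13 → Nat.card (centralizer ({x} : Set G)) = 13)
    (hn : Nat.card {g : G // orderOf g = 13} = 1728) : IsSimpleGroup G := by
  classical
  haveI : Fact (Nat.Prime 13) := ⟨by norm_num⟩
  have hp13 : ¬ 13 ^ 2 ∣ Nat.card G := by rw [hG]; norm_num
  obtain ⟨x, hx⟩ := exists_prime_orderOf_dvd_card' (G := G) 13 (by rw [hG]; norm_num)
  haveI : Nontrivial G := by
    rw [← Finite.one_lt_card_iff_nontrivial, hG]; norm_num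
  refine ⟨fun N hN => ?_⟩
  by_cases hx13 : 13 ∣ Nat.card N
  · right
    obtain ⟨z, hz⟩ := exists_prime_orderOf_dvd_card' (G := N) 13 hx13
    have hzG : orderOf (z : G) = 13 := by rw [Subgroup.orderOf_coe, hz]
    have hNdvd : Nat.card N ∣ 5616 := hG ▸ card_subgroup_dvd_card N
    have hpN : ¬ 13 ^ 2 ∣ Nat.card N := fun h => hp13 (h.trans (card_subgroup_dvd_card N))
    have hmulN := H10.PrimeClass.card_order_mul hpN hz
    rw [M11.card_order_subgroup hp13 hzG z.2, hn] at hmulN
    have hzC : 13 ∣ Nat.card (centralizer ({z} : Set N)) := by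
      have h1 : z ∈ centralizer ({z} : Set N) := by rw [mem_centralizer_singleton_iff]
      have := orderOf_dvd_natCard (⟨z, h1⟩ : centralizer ({z} : Set N))
      rwa [Subgroup.orderOf_mk, hz] at this
    obtain ⟨k, hk⟩ := hzC
    have hN1872 : 1872 ∣ Nat.card N := by
      refine ⟨Nat.card (H10.PrimeClass.autS 13 z hz) * k, ?_⟩
      rw [hk] at hmulN
      have : 12 * Nat.card N = 12 * (1872 * (Nat.card (H10.PrimeClass.autS 13 z hz) * k)) := by
        have h2 : (13 - 1) * Nat.card N = 1728 * (Nat.card (H10.PrimeClass.autS 13 z hz) * (13 * k)) := hmulN.symm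
        calc 12 * Nat.card N = (13 - 1) * Nat.card N := by norm_num
          _ = 1728 * (Nat.card (H10.PrimeClass.autS 13 z hz) * (13 * k)) := h2
          _ = _ := by ring
      exact Nat.eq_of_mul_eq_mul_left (by norm_num) this
    have hcases : Nat.card N = 1872 ∨ Nat.card N = 5616 := by
      have : ∀ d ∈ Nat.divisors 5616, 1872 ∣ d → d = 1872 ∨ d = 5616 := by decide +kernel
      exact this _ (Nat.mem_divisors.mpr ⟨hNdvd, by norm_num⟩) hN1872
    rcases hcases with h | h
    · exfalso
      -- normal complement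
      rw [h] at hmulN
      have hK : Nat.card (H10.PrimeClass.autS 13 z hz) * Nat.card (centralizer ({z} : Set N)) = 13 := by
        have : 1728 * (Nat.card (H10.PrimeClass.autS 13 z hz) * Nat.card (centralizer ({z} : Set N))) = 1728 * 13 := by
          rw [hmulN]
        exact Nat.eq_of_mul_eq_mul_left (by norm_num) this
      rw [hk] at hK
      have hk1 : k = 1 ∧ Nat.card (H10.PrimeClass.autS 13 z hz) = 1 := by
        have h3 : Nat.card (H10.PrimeClass.autS 13 z hz) * k = 1 := by
          have : 13 * (Nat.card (H10.PrimeClass.autS 13 z hz) * k) = 13 * 1 :=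
            (Nat.mul_left_comm 13 _ k).trans hK
          exact Nat.eq_of_mul_eq_mul_left (by norm_num) this
        exact ⟨Nat.eq_one_of_mul_eq_one_left h3, Nat.eq_one_of_mul_eq_one_right h3⟩
      have hCz : Nat.card (centralizer ({z} : Set N)) = 13 := by rw [hk, hk1.1]
      obtain ⟨P, hP⟩ := M11.exists_sylow_zpowers (p := 13) (m := 144) (by rw [h]; norm_num) (by norm_num) hz rfl
      have hNC : normalizer ((P : Subgroup N) : Set N) ≤ centralizer ((P : Subgroup N) : Set N) := by
        intro g hg
        rw [hP] at hg ⊢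
        rw [mem_centralizer_iff]
        have hgy : g * z * g⁻¹ = z := by
          have h3 : g * z * g⁻¹ ∈ zpowers z := (mem_normalizer_iff.mp hg z).mp (mem_zpowers z)
          have h4 : orderOf (g * z * g⁻¹) = 13 := by
            rw [← hz]
            exact orderOf_injective (MulAut.conj g).toMonoidHom (MulAut.conj g).injective z
          obtain ⟨b, hb⟩ := H10.PrimeClass.exists_xp_of_mem hz h4 h3
          have h5 : b ∈ H10.PrimeClass.autS 13 z hz := by
            rw [H10.PrimeClass.mem_autS, ← hb]
            exact isConj_iff.mpr ⟨g, rfl⟩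
          have he := hk1.2
          rw [Subgroup.card_eq_one] at he
          rw [he, Subgroup.mem_bot] at h5
          rw [hb, h5, H10.PrimeClass.xp_one hz]
        intro w hw
        obtain ⟨j, rfl⟩ := hw
        have h6 : Commute g z := mul_inv_eq_iff_eq_mul.mp hgy
        exact (h6.zpow_right j).symm.eq
      have hcomp := MonoidHom.ker_transferSylow_isComplement' P hNC
      set K := (MonoidHom.transferSylow P hNC).ker with hKdef
      have hPc : Nat.card (P : Subgroup N) = 13 := by rw [hP, Nat.card_zpowers, hz]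
      have hKc : Nat.card K = 144 := by
        have h6 := hcomp.card_mul
        rw [hPc, h] at h6
        omega
      have hzK : z ∈ normalizer (K : Set N) := by rw [Subgroup.normalizer_eq_top K]; trivial
      apply no_even13 hz hzK (by rw [hKc]; norm_num) _ (by rw [hKc]; norm_num)
      have d1 : Nat.card (K ⊓ centralizer ({z} : Set N) : Subgroup N) ∣ 144 := by
        rw [← hKc]; exact card_dvd_of_le inf_le_left
      have d2 : Nat.card (K ⊓ centralizer ({z} : Set N) : Subgroup N) ∣ 13 :=
        (card_dvd_of_le inf_le_right).trans (dvd_of_eq hCz)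
      have := Nat.dvd_gcd d1 d2
      norm_num at this
      exact this
    · rw [← Subgroup.card_eq_iff_eq_top, h, hG]
  · left
    by_contra hbot
    have hNdvd : Nat.card N ∣ 5616 := hG ▸ card_subgroup_dvd_card N
    have h432 : Nat.card N ∣ 432 := by
      have h9 : (Nat.card N).Coprime 13 := by
        rw [Nat.coprime_comm, Nat.Prime.coprime_iff_not_dvd (by norm_num)]; exact hx13
      rw [show (5616 : ℕ) = 13 * 432 by norm_num] at hNdvd
      exact h9.dvd_of_dvd_mul_left hNdvd
    have hxN : x ∈ normalizer (N : Set G) := by rw [Subgroup.normalizer_eq_top N]; trivial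
    have h2 := no_even13 hx hxN h432 (by
      have d1 : Nat.card (N ⊓ centralizer ({x} : Set G) : Subgroup G) ∣ 432 :=
        (card_dvd_of_le inf_le_left).trans h432
      have d2 : Nat.card (N ⊓ centralizer ({x} : Set G) : Subgroup G) ∣ 13 :=
        (card_dvd_of_le inf_le_right).trans (dvd_of_eq (h13 x hx))
      have := Nat.dvd_gcd d1 d2
      norm_num at this
      exact this)
    have h27 : Nat.card N ≤ 27 := by
      have : ∀ d ∈ Nat.divisors 432, ¬ 2 ∣ d → d ≤ 27 := by decide +kernel
      exact this _ (Nat.mem_divisors.mpr ⟨h432, by norm_num⟩) h2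
    obtain ⟨y, hy1⟩ := Subgroup.ne_bot_iff_exists_ne_one.mp hbot
    have hy : (y : G) ≠ 1 := fun h => hy1 (Subtype.ext h)
    have h3 := hc y hy
    have h4 : Nat.card {h : G // IsConj (y : G) h} ≤ Nat.card N := by
      refine Nat.card_le_card_of_injective (fun h => (⟨h.1, ?_⟩ : N)) ?_
      · obtain ⟨g, hg⟩ := isConj_iff.mp h.2
        rw [← hg]
        exact hN.conj_mem _ y.2 g
      · intro a b hab
        exact Subtype.ext (congrArg (fun q : N => (q : G)) hab)
    rw [natCard_isConj_eq_index] at h4
    have h5 := (centralizer ({(y : G)} : Set G)).card_mul_index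
    rw [hG] at h5
    have h6 : Nat.card (centralizer ({(y : G)} : Set G)) * (centralizer ({(y : G)} : Set G)).index ≤ 54 * 27 :=
      Nat.mul_le_mul h3 (h4.trans h27)
    rw [h5] at h6
    norm_num at h6

end Cfsg.Agent.H67.L33
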