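import Cfsg.Agent.H67.L33.CG1
import Cfsg.Agent.H67.M11.ComGraph

set_option autoImplicit false

/-!
# Transport of the plane through an isomorphism of commuting graphs (helper67)
-/

namespace Cfsg.Agent.H67.L33

open Subgroup Cfsg

universe u v

/-- conjugate of a set -/
def cs {H : Type u} [Group H] (h : H) (S : Set H) : Set H := {x | h⁻¹ * x * h ∈ S}

section cs

variable {H : Type u} [Group H]

theorem mem_cs {h x : H} {S : Set H} : x ∈ cs h S ↔ h⁻¹ * x * h ∈ S := Iff.rfl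

theorem cs_one (S : Set H) : cs 1 S = S := by
  ext x; rw [mem_cs]; simp

theorem cs_mul (g h : H) (S : Set H) : cs (g * h) S = cs g (cs h S) := by
  ext x; rw [mem_cs, mem_cs, mem_cs]
  rw [show (g * h)⁻¹ * x * (g * h) = h⁻¹ * (g⁻¹ * x * g) * h by group]

theorem cs_inj {h : H} {S T : Set H} (e : cs h S = cs h T) : S = T := by
  have h1 : cs h⁻¹ (cs h S) = cs h⁻¹ (cs h T) := by rw [e]
  rwa [← cs_mul, ← cs_mul, inv_mul_cancel, cs_one, cs_one] at h1

theorem cs_inter {h : H} {S T : Set H} : (cs h S ∩ cs h T).Nonempty ↔ (S ∩ T).Nonempty := by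
  constructor
  · rintro ⟨x, hx⟩
    exact ⟨h⁻¹ * x * h, hx⟩
  · rintro ⟨x, hx⟩
    refine ⟨h * x * h⁻¹, ?_⟩
    show h⁻¹ * (h * x * h⁻¹) * h ∈ S ∧ h⁻¹ * (h * x * h⁻¹) * h ∈ T
    rw [show h⁻¹ * (h * x * h⁻¹) * h = x by group]
    exact hx

theorem card_cs (h : H) (S : Set H) : Nat.card (cs h S) = Nat.card S := by
  refine Nat.card_congr ⟨fun x => ⟨h⁻¹ * x * h, x.2⟩, fun x => ⟨h * x * h⁻¹, ?_⟩, fun x => ?_, fun x => ?_⟩
  · rw [mem_cs, show h⁻¹ * (h * (x : H) * h⁻¹) * h = x by group]; exact x.2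
  · apply Subtype.ext; show h * (h⁻¹ * (x : H) * h) * h⁻¹ = x; group
  · apply Subtype.ext; show h⁻¹ * (h * (x : H) * h⁻¹) * h = x; group

/-- an element of order 13 fixing a set of size 8 centralizes an element of it (up to a power) -/
theorem exists_comm_of_fix {h : H} (oh : orderOf h = 13) {S : Set H} (hS : Nat.card S = 8) (hf : cs h S = S) :
    ∃ x ∈ S, ∃ k : H, orderOf k = 13 ∧ Commute x k := by
  have hsub : ∀ y, y ∈ cs h S → y ∈ S := fun y hy => by rwa [hf] at hy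
  haveI : Finite S := Nat.finite_of_card_ne_zero (by rw [hS]; norm_num)
  haveI : Nonempty S := by
    rw [← Finite.card_pos_iff, hS]; norm_num
  obtain ⟨x⟩ := (inferInstance : Nonempty S)
  have hpow : ∀ n : ℕ, h ^ n * (x : H) * (h ^ n)⁻¹ ∈ S := by
    intro n
    induction n with
    | zero => simp
    | succ n ih =>
      have h1 : h ^ (n + 1) * (x : H) * (h ^ (n + 1))⁻¹ ∈ cs h S := by
        rw [mem_cs, show h⁻¹ * (h ^ (n + 1) * (x : H) * (h ^ (n + 1))⁻¹) * h = h ^ n * (x : H) * (h ^ n)⁻¹ by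
          rw [pow_succ']; group]
        exact ih
      exact hsub _ h1
  let F : Fin 13 → S := fun n => ⟨h ^ (n : ℕ) * (x : H) * (h ^ (n : ℕ))⁻¹, hpow n⟩
  have hninj : ¬ Function.Injective F := by
    intro hinj
    have := Nat.card_le_card_of_injective F hinj
    rw [hS, Nat.card_eq_fintype_card, Fintype.card_fin] at this
    omega
  have key : ∀ i j : Fin 13, F i = F j → (i : ℕ) < j → ∃ x ∈ S, ∃ k : H, orderOf k = 13 ∧ Commute x k := by
    intro i j hij hlt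
    refine ⟨x, x.2, h ^ ((j : ℕ) - i), ?_, ?_⟩
    · haveI : Fact (Nat.Prime 13) := ⟨by norm_num⟩
      apply orderOf_eq_prime
      · have h13 : h ^ 13 = 1 := by have := pow_orderOf_eq_one h; rwa [oh] at this
        rw [← pow_mul, mul_comm, pow_mul, h13, one_pow]
      · apply pow_ne_one_of_lt_orderOf
        · omega
        · rw [oh]; have := j.2; omega
    · have h1 : h ^ (i : ℕ) * (x : H) * (h ^ (i : ℕ))⁻¹ = h ^ (j : ℕ) * (x : H) * (h ^ (j : ℕ))⁻¹ := congrArg Subtype.val hij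
      have h2 : h ^ (j : ℕ) = h ^ (i : ℕ) * h ^ ((j : ℕ) - i) := by rw [← pow_add]; congr 1; omega
      rw [h2] at h1
      have h3 : (x : H) = h ^ ((j : ℕ) - i) * x * (h ^ ((j : ℕ) - i))⁻¹ := by
        have h4 : (h ^ (i : ℕ))⁻¹ * (h ^ (i : ℕ) * (x : H) * (h ^ (i : ℕ))⁻¹) * h ^ (i : ℕ) =
          (h ^ (i : ℕ))⁻¹ * (h ^ (i : ℕ) * h ^ ((j : ℕ) - i) * (x : H) * (h ^ (i : ℕ) * h ^ ((j : ℕ) - i))⁻¹) * h ^ (i : ℕ) := by
          rw [h1]
        calc (x : H) = (h ^ (i : ℕ))⁻¹ * (h ^ (i : ℕ) * (x : H) * (h ^ (i : ℕ))⁻¹) * h ^ (i : ℕ) := by group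
          _ = _ := h4
          _ = _ := by group
      show (x : H) * h ^ ((j : ℕ) - i) = h ^ ((j : ℕ) - i) * x
      exact (eq_mul_inv_iff_mul_eq.mp h3)
  simp only [Function.Injective, not_forall] at hninj
  obtain ⟨i, j, hij, hne⟩ := hninj
  rcases lt_trichotomy (i : ℕ) j with h1 | h1 | h1
  · exact key i j hij h1
  · exact absurd (Fin.ext h1) hne
  · exact key j i hij.symm h1

end cs

variable {H : Type u} {M : Type v} [Group H] [Group M]

/-- the nonidentity elements corresponding to a subgroup -/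
def SS (f : {h : H // h ≠ 1} ≃ {g : M // g ≠ 1}) (K : Subgroup M) : Set H :=
  {x | ∃ hx : x ≠ 1, ((f ⟨x, hx⟩ : {g : M // g ≠ 1}) : M) ∈ K}

theorem mem_SS_symm {f : {h : H // h ≠ 1} ≃ {g : M // g ≠ 1}} {K : Subgroup M} {k : M} (hk : k ∈ K) (hk1 : k ≠ 1) :
    ((f.symm ⟨k, hk1⟩ : {h : H // h ≠ 1}) : H) ∈ SS f K := by
  refine ⟨(f.symm ⟨k, hk1⟩).2, ?_⟩
  have : f ⟨(f.symm ⟨k, hk1⟩ : {h : H // h ≠ 1}), (f.symm ⟨k, hk1⟩).2⟩ = ⟨k, hk1⟩ := f.apply_symm_apply _
  rw [this]; exact hk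

theorem SS_inj {f : {h : H // h ≠ 1} ≃ {g : M // g ≠ 1}} {K L : Subgroup M} (h : SS f K = SS f L) : K = L := by
  have key : ∀ K L : Subgroup M, SS f K = SS f L → K ≤ L := by
    intro K L h k hk
    by_cases hk1 : k = 1
    · rw [hk1]; exact L.one_mem
    · have h1 := mem_SS_symm (f := f) hk hk1
      rw [h] at h1
      obtain ⟨h2, h3⟩ := h1
      have : f ⟨(f.symm ⟨k, hk1⟩ : {h : H // h ≠ 1}), h2⟩ = ⟨k, hk1⟩ := f.apply_symm_apply _
      rw [this] at h3; exact h3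
  exact le_antisymm (key K L h) (key L K h.symm)

theorem SS_inter {f : {h : H // h ≠ 1} ≃ {g : M // g ≠ 1}} {K L : Subgroup M} :
    (SS f K ∩ SS f L).Nonempty ↔ K ⊓ L ≠ ⊥ := by
  constructor
  · rintro ⟨x, ⟨hx, h1⟩, ⟨_, h2⟩⟩ hbot
    have h3 : ((f ⟨x, hx⟩ : {g : M // g ≠ 1}) : M) ∈ K ⊓ L := ⟨h1, h2⟩
    rw [hbot, mem_bot] at h3
    exact (f ⟨x, hx⟩).2 h3
  · intro h
    obtain ⟨k, hk⟩ := Subgroup.ne_bot_iff_exists_ne_one.mp h
    have hk1 : (k : M) ≠ 1 := fun h => hk (Subtype.ext h)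
    exact ⟨_, mem_SS_symm k.2.1 hk1, mem_SS_symm k.2.2 hk1⟩

theorem card_SS (f : {h : H // h ≠ 1} ≃ {g : M // g ≠ 1}) (K : Subgroup M) :
    Nat.card (SS f K) = Nat.card {x : M // x ∈ K ∧ x ≠ 1} := by
  refine Nat.card_congr ⟨fun x => ⟨f ⟨x.1, x.2.1⟩, x.2.2, (f ⟨x.1, x.2.1⟩).2⟩,
    fun k => ⟨(f.symm ⟨k.1, k.2.2⟩ : {h : H // h ≠ 1}), mem_SS_symm k.2.1 k.2.2⟩, fun x => ?_, fun k => ?_⟩
  · apply Subtype.ext
    show ((f.symm ⟨f ⟨x.1, x.2.1⟩, _⟩ : {h : H // h ≠ 1}) : H) = x.1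
    rw [Subtype.coe_eta, Equiv.symm_apply_apply]
  · apply Subtype.ext
    show ((f ⟨(f.symm ⟨k.1, k.2.2⟩ : {h : H // h ≠ 1}), _⟩ : {g : M // g ≠ 1}) : M) = k.1
    rw [Subtype.coe_eta, Equiv.apply_symm_apply]

/-- nonidentity elements have small centralizers -/
theorem Hyp.cent_le [Finite M] (hM : Hyp M) {x : M} (hx : x ≠ 1) : Nat.card (centralizer ({x} : Set M)) ≤ 54 := by
  have h1 : orderOf x ≠ 1 := fun h => hx (orderOf_eq_one_iff.mp h)
  obtain ⟨p, hp, k, hk⟩ := Nat.exists_prime_and_dvd h1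
  have hk0 : k ≠ 0 := by
    rintro rfl
    have := orderOf_pos x
    rw [hk, mul_zero] at this; omega
  have hle : centralizer ({x} : Set M) ≤ centralizer ({x ^ k} : Set M) := by
    intro y hy
    exact commute_iff_mem.mpr ((commute_iff_mem.mp hy).pow_left k)
  have h3 : orderOf (x ^ k) = p := by
    rw [orderOf_pow' _ hk0, hk, Nat.gcd_eq_right (dvd_mul_left k p), Nat.mul_div_cancel _ (Nat.pos_of_ne_zero hk0)]
  have hp' : p ∈ Nat.primeFactors 5616 := Nat.mem_primeFactors.mpr ⟨hp, by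
    rw [← hM.card, ← h3]; exact orderOf_dvd_natCard _, by norm_num⟩
  rw [show Nat.primeFactors 5616 = {2, 3, 13} by
    rw [show 5616 = 432 * 13 by norm_num, Nat.primeFactors_mul (by norm_num) (by norm_num)]
    decide +kernel] at hp'
  simp only [Finset.mem_insert, Finset.mem_singleton] at hp'
  have h4 := Nat.le_of_dvd Nat.card_pos (card_dvd_of_le hle)
  rcases hp' with rfl | rfl | rfl
  · rw [hM.cinv _ h3] at h4; omega
  · by_cases h : ∃ s : M, orderOf s = 2 ∧ Commute s (x ^ k)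
    · obtain ⟨s, hs, hsy⟩ := h
      rw [hM.good_of_inv hs h3 hsy] at h4; omega
    · push Not at h
      have := Nat.le_of_dvd (by norm_num) (hM.cent_odd h3 h)
      omega
  · rw [hM.c13 h3] at h4; omega

theorem simple_of_com [Finite H] [Finite M] (hM : Hyp M) (f : {h : H // h ≠ 1} ≃ {g : M // g ≠ 1})
    (hf : ∀ x y : {h : H // h ≠ 1}, (x : H) * y = y * x ↔ ((f x : {g : M // g ≠ 1}) : M) * (f y) = (f y) * (f x))
    (hcard : Nat.card H = 5616) : IsSimpleGroup H := by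
  haveI : Fact (Nat.Prime 13) := ⟨by norm_num⟩
  have h13 : ∀ g : M, orderOf g = 13 → Nat.card (centralizer ({g} : Set M)) = 13 := fun g hg => hM.c13 hg
  apply simple_of_graph hcard
  · intro x hx
    rw [ComGraph.card_centralizer f hf ⟨x, hx⟩]
    exact hM.cent_le (f ⟨x, hx⟩).2
  · intro x hx
    have hx1 : x ≠ 1 := by rintro rfl; rw [orderOf_one] at hx; omega
    rw [ComGraph.card_centralizer f hf ⟨x, hx1⟩]
    apply h13
    exact (ComGraph.order_iff f hf h13 ⟨x, hx1⟩).mp hx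
  · rw [ComGraph.card_order f hf h13]
    obtain ⟨g, hg⟩ := exists_prime_orderOf_dvd_card' (G := M) 13 (by rw [hM.card]; norm_num)
    have h1 := H10.PrimeClass.card_order_mul (by rw [hM.card]; norm_num) hg
    have h2 := M11.count_mul (G := M) (p := 13) (m := 432) (by rw [hM.card]) (by norm_num)
    rw [hM.c13 hg, hM.card] at h1
    rw [hM.card] at h2
    -- number of elements is a multiple of 432 = index of the centralizer
    have h3 : 432 ∣ Nat.card {g : M // orderOf g = 13} := by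
      apply M11.dvd_count (c := 13)
      · rw [hM.card]
      · intro g hg; rw [hM.c13 hg]
    obtain ⟨q, hq⟩ := h3
    have h4 : q ∣ 12 := by
      have h5 : 432 * q * (Nat.card (H10.PrimeClass.autS 13 g hg) * 13) = (13 - 1) * 5616 := by rw [← hq]; exact h1
      have h6 : 5616 * (q * Nat.card (H10.PrimeClass.autS 13 g hg)) = 5616 * 12 := by
        calc 5616 * (q * Nat.card (H10.PrimeClass.autS 13 g hg)) = 432 * q * (Nat.card (H10.PrimeClass.autS 13 g hg) * 13) := by ring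
          _ = (13 - 1) * 5616 := h5
          _ = 5616 * 12 := by norm_num
      exact ⟨_, (Nat.eq_of_mul_eq_mul_left (by norm_num) h6).symm⟩
    rw [hq] at h2 ⊢
    have h5 : q ∈ Nat.divisors 12 := Nat.mem_divisors.mpr ⟨h4, by norm_num⟩
    have key : ∀ q ∈ Nat.divisors 12, 13 ∣ 432 * q + 1 → q = 4 := by decide +kernel
    rw [key q h5 h2.2]

end Cfsg.Agent.H67.L33
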