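import Cfsg.Agent.H67.L33.CG2
import Cfsg.Agent.H67.L33.Final

set_option autoImplicit false

/-!
# The commuting graph of PSL(3, 3), end (helper67)
-/

namespace Cfsg.Agent.H67.L33

open Subgroup Cfsg

universe u v

variable {H : Type u} {M : Type v} [Group H] [Group M] [Finite H] [Finite M]

section

variable (hM : Hyp M) (f : {h : H // h ≠ 1} ≃ {g : M // g ≠ 1})
    (hf : ∀ x y : {h : H // h ≠ 1}, (x : H) * y = y * x ↔ ((f x : {g : M // g ≠ 1}) : M) * (f y) = (f y) * (f x))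
    {E F : Subgroup M} (P : PL E F)

include hM hf P

theorem clique {K : Subgroup M} (hK : TI K) (h : H) :
    (∃ A : CX E, cs h (SS f K) = SS f A.1) ∨ ∃ B : CX F, cs h (SS f K) = SS f B.1 := by
  classical
  have hgood : ∀ x : H, x ∈ cs h (SS f K) → ∃ hx : x ≠ 1, orderOf ((f ⟨x, hx⟩ : {g : M // g ≠ 1}) : M) = 3 ∧
      Nat.card (centralizer ({((f ⟨x, hx⟩ : {g : M // g ≠ 1}) : M)} : Set M)) = 54 := by
    intro x hx
    obtain ⟨hx1, hx2⟩ := hx
    have hxn : x ≠ 1 := by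
      rintro rfl
      apply hx1; group
    refine ⟨hxn, ?_⟩
    have h1 := (hK.good _ hx2 (f ⟨h⁻¹ * x * h, hx1⟩).2).2
    rw [← ComGraph.card_centralizer f hf] at h1
    have h2 : Nat.card (centralizer ({h⁻¹ * x * h} : Set H)) = Nat.card (centralizer ({x} : Set H)) := by
      have h3 := card_cent_conj h⁻¹ x
      rwa [inv_inv] at h3
    have h3 : Nat.card (centralizer ({((f ⟨x, hxn⟩ : {g : M // g ≠ 1}) : M)} : Set M)) = 54 := by
      rw [← ComGraph.card_centralizer f hf ⟨x, hxn⟩]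
      exact h2.symm.trans h1
    exact ⟨hM.order_of_cent h3, h3⟩
  have hcomm : ∀ (x y : H) (hx : x ≠ 1) (hy : y ≠ 1), x ∈ cs h (SS f K) → y ∈ cs h (SS f K) →
      Commute ((f ⟨x, hx⟩ : {g : M // g ≠ 1}) : M) ((f ⟨y, hy⟩ : {g : M // g ≠ 1}) : M) := by
    intro x y hx hy hxS hyS
    obtain ⟨hx1, hx2⟩ := hxS
    obtain ⟨hy1, hy2⟩ := hyS
    have h1 := (hf ⟨h⁻¹ * x * h, hx1⟩ ⟨h⁻¹ * y * h, hy1⟩).mpr (hK.comm _ hx2 _ hy2)
    have h2 : Commute (h⁻¹ * x * h) (h⁻¹ * y * h) := h1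
    have h3 := commute_conj (g := h) h2
    rw [show h * (h⁻¹ * x * h) * h⁻¹ = x by group, show h * (h⁻¹ * y * h) * h⁻¹ = y by group] at h3
    exact (hf ⟨x, hx⟩ ⟨y, hy⟩).mp h3
  have hcard : Nat.card (cs h (SS f K)) = 8 := by
    rw [card_cs, card_SS, card_ne_one, hK.card]
  obtain ⟨k0, hk0, hk01⟩ := hK.exists_ne_one
  have hx0 : h * ((f.symm ⟨k0, hk01⟩ : {h : H // h ≠ 1}) : H) * h⁻¹ ∈ cs h (SS f K) := by
    rw [mem_cs, show h⁻¹ * (h * ((f.symm ⟨k0, hk01⟩ : {h : H // h ≠ 1}) : H) * h⁻¹) * h =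
      ((f.symm ⟨k0, hk01⟩ : {h : H // h ≠ 1}) : H) by group]
    exact mem_SS_symm hk0 hk01
  generalize h * ((f.symm ⟨k0, hk01⟩ : {h : H // h ≠ 1}) : H) * h⁻¹ = x0 at hx0
  obtain ⟨hx0n, o0, c0'⟩ := hgood x0 hx0
  obtain ⟨A, hA⟩ := P.T.exists_mem hM o0 c0'
  obtain ⟨B, hB⟩ := P.T'.exists_mem hM o0 c0'
  have hdich : (∀ x ∈ cs h (SS f K), x ∈ SS f A.1) ∨ (∀ x ∈ cs h (SS f K), x ∈ SS f B.1) := by
    by_cases hall : ∀ x ∈ cs h (SS f K), x ∈ SS f A.1
    · exact Or.inl hall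
    · right
      push Not at hall
      obtain ⟨x1, hx1, hx1A⟩ := hall
      obtain ⟨hx1n, o1, c1⟩ := hgood x1 hx1
      have hne : ∀ x : H, ∀ hx : x ≠ 1, ((f ⟨x, hx⟩ : {g : M // g ≠ 1}) : M) ≠ 1 := fun x hx => (f ⟨x, hx⟩).2
      have hx1B : ((f ⟨x1, hx1n⟩ : {g : M // g ≠ 1}) : M) ∈ B.1 := by
        rcases P.comm _ _ o0 o1 c0' c1 (hcomm _ _ hx0n hx1n hx0 hx1) with ⟨A', h1, h2⟩ | ⟨B', h1, h2⟩
        · have e := P.T.eq_of_mem hA h1 (hne _ _)
          rw [← e] at h2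
          exact absurd ⟨hx1n, h2⟩ hx1A
        · have e := P.T'.eq_of_mem hB h1 (hne _ _)
          rw [e]; exact h2
      intro x hx
      obtain ⟨hxn, ox, cx⟩ := hgood x hx
      refine ⟨hxn, ?_⟩
      by_contra hxB
      have hxA : ((f ⟨x, hxn⟩ : {g : M // g ≠ 1}) : M) ∈ A.1 := by
        rcases P.comm _ _ o0 ox c0' cx (hcomm _ _ hx0n hxn hx0 hx) with ⟨A', h1, h2⟩ | ⟨B', h1, h2⟩
        · have e := P.T.eq_of_mem hA h1 (hne _ _)
          rw [e]; exact h2
        · have e := P.T'.eq_of_mem hB h1 (hne _ _)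
          rw [← e] at h2
          exact absurd h2 hxB
      rcases P.comm _ _ ox o1 cx c1 (hcomm _ _ hxn hx1n hx hx1) with ⟨A', h1, h2⟩ | ⟨B', h1, h2⟩
      · have e := P.T.eq_of_mem hxA h1 (hne _ _)
        rw [← e] at h2
        exact hx1A ⟨hx1n, h2⟩
      · have e := P.T'.eq_of_mem hx1B h2 (hne _ _)
        rw [← e] at h1
        exact hxB h1
  have hfin : ∀ L : Subgroup M, (SS f L).Finite := fun L => Set.toFinite _
  have heq : ∀ L : Subgroup M, TI L → (∀ x ∈ cs h (SS f K), x ∈ SS f L) → cs h (SS f K) = SS f L := by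
    intro L hL hsub
    apply Set.eq_of_subset_of_ncard_le (fun x hx => hsub x hx)
    · rw [← Nat.card_coe_set_eq, ← Nat.card_coe_set_eq, hcard, card_SS, card_ne_one, hL.card]
  rcases hdich with h1 | h1
  · exact Or.inl ⟨A, heq _ (P.T.tiX A) h1⟩
  · exact Or.inr ⟨B, heq _ (P.T'.tiX B) h1⟩

/-- type X -/
def TX (f : {h : H // h ≠ 1} ≃ {g : M // g ≠ 1}) (E : Subgroup M) (S : Set H) : Prop := ∃ A : CX E, S = SS f A.1

omit hM hf in
theorem not_both (S : Set H) (h1 : TX f E S) (h2 : TX f F S) : False := by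
  obtain ⟨A, hA⟩ := h1
  obtain ⟨B, hB⟩ := h2
  exact P.hne A B (SS_inj (f := f) (hA.symm.trans hB))

omit hM hf in
theorem not_sameE {h : H} {A : CX E} {B : CX F} (hAB : A.1 ⊓ B.1 ≠ ⊥) (h1 : TX f E (cs h (SS f A.1)))
    (h2 : TX f E (cs h (SS f B.1))) : False := by
  obtain ⟨A1, hA1⟩ := h1
  obtain ⟨A2, hA2⟩ := h2
  have h3 : (SS f A1.1 ∩ SS f A2.1).Nonempty := by
    rw [← hA1, ← hA2, cs_inter]
    exact SS_inter.mpr hAB
  have h4 := SS_inter.mp h3
  obtain ⟨x, hx⟩ := Subgroup.ne_bot_iff_exists_ne_one.mp h4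
  have h5 := P.T.eq_of_mem x.2.1 x.2.2 (fun h => hx (Subtype.ext h))
  have h6 : cs h (SS f A.1) = cs h (SS f B.1) := by rw [hA1, hA2, h5]
  exact P.hne A B (SS_inj (cs_inj h6))

omit hM hf in
theorem not_sameF {h : H} {A : CX E} {B : CX F} (hAB : A.1 ⊓ B.1 ≠ ⊥) (h1 : TX f F (cs h (SS f A.1)))
    (h2 : TX f F (cs h (SS f B.1))) : False := by
  obtain ⟨A1, hA1⟩ := h1
  obtain ⟨A2, hA2⟩ := h2
  have h3 : (SS f A1.1 ∩ SS f A2.1).Nonempty := by
    rw [← hA1, ← hA2, cs_inter]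
    exact SS_inter.mpr hAB
  have h4 := SS_inter.mp h3
  obtain ⟨x, hx⟩ := Subgroup.ne_bot_iff_exists_ne_one.mp h4
  have h5 := P.T'.eq_of_mem x.2.1 x.2.2 (fun h => hx (Subtype.ext h))
  have h6 : cs h (SS f A.1) = cs h (SS f B.1) := by rw [hA1, hA2, h5]
  exact P.hne A B (SS_inj (cs_inj h6))

theorem types (h : H) (A0 : CX E) :
    (TX f E (cs h (SS f A0.1)) → (∀ A : CX E, TX f E (cs h (SS f A.1))) ∧ (∀ B : CX F, TX f F (cs h (SS f B.1)))) ∧
    (¬ TX f E (cs h (SS f A0.1)) → (∀ A : CX E, TX f F (cs h (SS f A.1))) ∧ (∀ B : CX F, TX f E (cs h (SS f B.1)))) := by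
  have cA : ∀ A : CX E, TX f E (cs h (SS f A.1)) ∨ TX f F (cs h (SS f A.1)) := fun A => clique hM f hf P (P.T.tiX A) h
  have cB : ∀ B : CX F, TX f E (cs h (SS f B.1)) ∨ TX f F (cs h (SS f B.1)) := fun B => clique hM f hf P (P.T'.tiX B) h
  constructor
  · intro h0
    have hX : ∀ A : CX E, TX f E (cs h (SS f A.1)) := by
      intro A
      obtain ⟨B, h1, h2⟩ := P.conn A0 A
      have h3 := (cB B).resolve_left (fun h3 => not_sameE f P h1 h0 h3)
      exact (cA A).resolve_right (fun h4 => not_sameF f P h2 h4 h3)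
    refine ⟨hX, fun B => ?_⟩
    obtain ⟨A, h1, -⟩ := P.conn' B B
    exact (cB B).resolve_left (fun h3 => not_sameE f P h1 (hX A) h3)
  · intro h0
    have h0' := (cA A0).resolve_left h0
    have hX : ∀ A : CX E, TX f F (cs h (SS f A.1)) := by
      intro A
      obtain ⟨B, h1, h2⟩ := P.conn A0 A
      have h3 := (cB B).resolve_right (fun h3 => not_sameF f P h1 h0' h3)
      exact (cA A).resolve_left (fun h4 => not_sameE f P h2 h4 h3)
    refine ⟨hX, fun B => ?_⟩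
    obtain ⟨A, h1, -⟩ := P.conn' B B
    exact (cB B).resolve_right (fun h3 => not_sameF f P h1 (hX A) h3)

theorem preserves [hs : IsSimpleGroup H] (hcard : Nat.card H = 5616) (h : H) :
    (∀ A : CX E, TX f E (cs h (SS f A.1))) ∧ (∀ B : CX F, TX f F (cs h (SS f B.1))) := by
  classical
  let A0 : CX E := ⟨E, 1, (cj_one E).symm⟩
  let Q : H → Prop := fun h => TX f E (cs h (SS f A0.1))
  have hQ : ∀ g k, Q (g * k) ↔ (Q g ↔ Q k) := by
    intro g k
    have tg := types hM f hf P g A0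
    have e : cs (g * k) (SS f A0.1) = cs g (cs k (SS f A0.1)) := cs_mul g k _
    show TX f E (cs (g * k) (SS f A0.1)) ↔ (Q g ↔ Q k)
    rw [e]
    by_cases hk : Q k
    · obtain ⟨A1, hA1⟩ := id hk
      rw [hA1]
      by_cases hg : Q g
      · exact ⟨fun _ => ⟨fun _ => hk, fun _ => hg⟩, fun _ => (tg.1 hg).1 A1⟩
      · refine ⟨fun h1 => absurd h1 (fun h1 => not_both f P _ h1 ((tg.2 hg).1 A1)), fun h1 => absurd (h1.mpr hk) hg⟩
    · obtain ⟨B1, hB1⟩ := ((types hM f hf P k A0).2 hk).1 A0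
      rw [hB1]
      by_cases hg : Q g
      · refine ⟨fun h1 => absurd h1 (fun h1 => not_both f P _ h1 ((tg.1 hg).2 B1)), fun h1 => absurd (h1.mp hg) hk⟩
      · exact ⟨fun _ => ⟨fun h1 => absurd h1 hg, fun h1 => absurd h1 hk⟩, fun _ => (tg.2 hg).2 B1⟩
  have hQ1 : Q 1 := ⟨A0, cs_one _⟩
  let χ : H →* ℤˣ :=
    { toFun := fun h => if Q h then 1 else -1
      map_one' := if_pos hQ1
      map_mul' := by
        intro g k
        show (if Q (g * k) then (1 : ℤˣ) else -1) = (if Q g then 1 else -1) * (if Q k then 1 else -1)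
        by_cases hg : Q g <;> by_cases hk : Q k
        · rw [if_pos hg, if_pos hk, if_pos ((hQ g k).mpr ⟨fun _ => hk, fun _ => hg⟩), one_mul]
        · rw [if_pos hg, if_neg hk, if_neg (fun h => hk (((hQ g k).mp h).mp hg)), one_mul]
        · rw [if_neg hg, if_pos hk, if_neg (fun h => hg (((hQ g k).mp h).mpr hk)), mul_one]
        · rw [if_neg hg, if_neg hk, if_pos ((hQ g k).mpr ⟨fun h => absurd h hg, fun h => absurd h hk⟩)]
          decide }
  have hQh : Q h := by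
    rcases χ.normal_ker.eq_bot_or_eq_top with hk | hk
    · exfalso
      have hinj : Function.Injective χ := (MonoidHom.ker_eq_bot_iff χ).mp hk
      have := Nat.card_le_card_of_injective χ hinj
      rw [hcard, Nat.card_eq_fintype_card] at this
      have h2 : Fintype.card ℤˣ = 2 := by decide
      omega
    · have h1 : h ∈ χ.ker := by rw [hk]; trivial
      have h2 : (if Q h then (1 : ℤˣ) else -1) = 1 := MonoidHom.mem_ker.mp h1
      by_contra hn
      rw [if_neg hn] at h2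
      exact absurd h2 (by decide)
  exact (types hM f hf P h A0).1 hQh

end

theorem com_iso (hM : Hyp M) (f : {h : H // h ≠ 1} ≃ {g : M // g ≠ 1})
    (hf : ∀ x y : {h : H // h ≠ 1}, (x : H) * y = y * x ↔ ((f x : {g : M // g ≠ 1}) : M) * (f y) = (f y) * (f x))
    (hcard : Nat.card H = 5616) : Nonempty (H ≃* M) := by
  classical
  haveI hs := simple_of_com hM f hf hcard
  obtain ⟨E, F, P⟩ := hM.exists_PL
  have hpr := fun h => preserves hM f hf P hcard h
  letI aX : MulAction H {S : Set H // TX f E S} :=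
    { smul := fun h S => ⟨cs h S.1, by
        obtain ⟨S, A, rfl⟩ := S
        exact (hpr h).1 A⟩
      one_smul := fun S => Subtype.ext (cs_one _)
      mul_smul := fun g h S => Subtype.ext (cs_mul g h _) }
  letI aY : MulAction H {S : Set H // TX f F S} :=
    { smul := fun h S => ⟨cs h S.1, by
        obtain ⟨S, A, rfl⟩ := S
        exact (hpr h).2 A⟩
      one_smul := fun S => Subtype.ext (cs_one _)
      mul_smul := fun g h S => Subtype.ext (cs_mul g h _) }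
  have eX : ∀ (K : Subgroup M), Nat.card {S : Set H // TX f K S} = Nat.card (CX K) := by
    intro K
    symm
    refine Nat.card_congr (Equiv.ofBijective (fun A => ⟨SS f A.1, A, rfl⟩) ⟨?_, ?_⟩)
    · intro A A' h
      exact Subtype.ext (SS_inj (congrArg Subtype.val h))
    · rintro ⟨S, A, rfl⟩
      exact ⟨A, rfl⟩
  have nofix : ∀ (K : Subgroup M) (A : CX K), TI K → ∀ h : H, orderOf h = 13 → cs h (SS f A.1) ≠ SS f A.1 := by
    intro K A hK h oh hfix
    obtain ⟨x, ⟨hx1, hx2⟩, k, ok, hk⟩ := exists_comm_of_fix oh (by rw [card_SS]; exact hK.card_eight A) hfix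
    have h1 := ((hK.tiX A).good _ hx2 (f ⟨x, hx1⟩).2).2
    rw [← ComGraph.card_centralizer f hf] at h1
    have h2 := orderOf_dvd_card_cent hk
    rw [ok] at h2
    have h3 : Nat.card (centralizer ({x} : Set H)) = 54 := h1
    rw [h3] at h2
    omega
  have hiso : Nonempty (H ≃* A0) := by
    apply plane_iso hcard (X := {S : Set H // TX f E S}) (Y := {S : Set H // TX f F S})
      (by rw [eX, P.T.card_CX hM]) (by rw [eX, P.T'.card_CX hM]) (fun S S' => (S.1 ∩ S'.1).Nonempty)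
    · intro g S S'
      exact cs_inter
    · rintro ⟨S, B, rfl⟩
      rw [← P.T.card_pts hM P.T' P.hne B]
      symm
      refine Nat.card_congr (Equiv.ofBijective (fun A => ⟨⟨SS f A.1.1, A.1, rfl⟩, SS_inter.mpr A.2⟩) ⟨?_, ?_⟩)
      · intro A A' h
        have h1 : SS f A.1.1 = SS f A'.1.1 := congrArg (fun q : {x : {S : Set H // TX f E S} // (x.1 ∩ SS f B.1).Nonempty} => q.1.1) h
        exact Subtype.ext (Subtype.ext (SS_inj h1))
      · rintro ⟨⟨S, A, rfl⟩, hS⟩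
        exact ⟨⟨A, SS_inter.mp hS⟩, rfl⟩
    · rintro ⟨S, A, rfl⟩ ⟨S', A', rfl⟩ ⟨T, B, rfl⟩ ⟨T', B', rfl⟩ hne h1 h2 h3 h4
      have hAA : A ≠ A' := by rintro rfl; exact hne rfl
      have := P.T.uniq hM P.T' A A' B B' hAA (SS_inter.mp h1) (SS_inter.mp h2) (SS_inter.mp h3) (SS_inter.mp h4)
      rw [this]
    · rintro g hg ⟨S, A, rfl⟩ h
      exact nofix E A P.T g hg (congrArg Subtype.val h)
    · rintro g hg ⟨S, A, rfl⟩ h
      exact nofix F A P.T' g hg (congrArg Subtype.val h)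
  obtain ⟨e⟩ := hiso
  obtain ⟨e'⟩ := hM.nonempty_iso
  exact ⟨e.trans e'.symm⟩

end Cfsg.Agent.H67.L33
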