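import Cfsg.Agent.H67.L33.Loc9

set_option autoImplicit false

/-!
# Simple groups of order 5616: commuting 3-central elements (helper67)
-/

namespace Cfsg.Agent.H67.L33

open Subgroup Cfsg

universe u

variable {G : Type u} [Group G]

/-- an involution normalizing a finite group fixes a nonidentity element or inverts -/
theorem fix_or_inv [Finite G] {K : Subgroup G} {b : G} (ob : orderOf b = 2) (hb : ∀ u ∈ K, b * u * b⁻¹ ∈ K) :
    (∃ v ∈ K, v ≠ 1 ∧ Commute b v) ∨ ∀ u ∈ K, b * u * b⁻¹ = u⁻¹ := by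
  by_cases h : ∃ v ∈ K, v ≠ 1 ∧ Commute b v
  · exact Or.inl h
  · right
    push Not at h
    have hb2 : b * b = 1 := by
      have := pow_orderOf_eq_one b
      rwa [ob, pow_two] at this
    have hbi : b⁻¹ = b := by rw [inv_eq_iff_mul_eq_one]; exact hb2
    let φ : K →* K :=
      { toFun := fun x => ⟨b * x * b⁻¹, hb x x.2⟩
        map_one' := Subtype.ext (by simp)
        map_mul' := fun x y => Subtype.ext (by
          show b * (x * y) * b⁻¹ = b * x * b⁻¹ * (b * y * b⁻¹)
          group) }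
    have hfix : MonoidHom.FixedPointFree φ := by
      intro x hx
      have h1 : b * (x : G) * b⁻¹ = x := congrArg Subtype.val hx
      by_contra hx1
      exact h x x.2 (fun h2 => hx1 (Subtype.ext h2)) (mul_inv_eq_iff_eq_mul.mp h1)
    have hinv : Function.Involutive φ := by
      intro x
      apply Subtype.ext
      show b * (b * x * b⁻¹) * b⁻¹ = x
      rw [hbi]
      calc b * (b * (x : G) * b) * b = (b * b) * x * (b * b) := by group
        _ = x := by rw [hb2, one_mul, mul_one]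
    intro u hu
    have h1 := congrFun (hfix.coe_eq_inv_of_involutive hinv) ⟨u, hu⟩
    exact congrArg Subtype.val h1

namespace Loc54

variable [Finite G] {m : G} {U : Subgroup G} (L : Loc54 m U)

include L

theorem nonab : ∃ x ∈ U, ∃ y ∈ U, x * y ≠ y * x := by
  by_contra hcon
  push Not at hcon
  have hle : U ≤ zpowers m := fun y hy => L.hz y hy (fun x hx => hcon x hx y hy)
  have := Nat.le_of_dvd Nat.card_pos (card_dvd_of_le hle)
  rw [L.cU, Nat.card_zpowers, L.om] at this
  omega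

theorem comm_mem : ∀ x ∈ U, ∀ y ∈ U, x * y * x⁻¹ * y⁻¹ ∈ zpowers m := by
  obtain ⟨x, hx, y, hy, hxy⟩ := L.nonab
  have hna : ∃ a b : U, a * b ≠ b * a := ⟨⟨x, hx⟩, ⟨y, hy⟩, fun h => hxy (congrArg Subtype.val h)⟩
  have hcc := card_center27 (P := U) L.cU hna
  have hq : Nat.card (U ⧸ center U) = 3 ^ 2 := by
    have h4 := (center U).card_mul_index
    rw [hcc, L.cU] at h4
    rw [← Subgroup.index_eq_card]; omega
  have hcomm : ∀ a b : U, a * b * a⁻¹ * b⁻¹ ∈ center U := by
    intro a b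
    rw [← QuotientGroup.eq_one_iff]
    have := IsPGroup.commutative_of_card_eq_prime_sq (p := 3) hq (a : U ⧸ center U) (b : U ⧸ center U)
    show (a : U ⧸ center U) * (b : U ⧸ center U) * (a : U ⧸ center U)⁻¹ * (b : U ⧸ center U)⁻¹ = 1
    rw [this]; group
  intro a ha c hc
  have h1 := hcomm ⟨a, ha⟩ ⟨c, hc⟩
  apply L.hz
  · exact mul_mem (mul_mem (mul_mem ha hc) (inv_mem ha)) (inv_mem hc)
  · intro w hw
    exact congrArg Subtype.val (mem_center_iff.mp h1 ⟨w, hw⟩)

theorem comm_zp {c x : G} (hc : c ∈ zpowers m) (hx : x ∈ U) : Commute c x := by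
  obtain ⟨k, rfl⟩ := hc
  have h1 : Commute x m := L.hc x hx
  exact (h1.zpow_right k).symm

theorem zp_le : zpowers m ≤ U := zpowers_le.mpr L.mU

theorem cent_le {N : Subgroup G} (hU : U ≤ N) {t : G} (ht : t ∈ N) (ot : orderOf t = 2) (tm : Commute t m) :
    centralizer ({m} : Set G) ≤ N := by
  have h1 : U ≤ centralizer ({m} : Set G) ⊓ N := le_inf (fun x hx => mem_centralizer_singleton_iff.mpr (L.hc x hx)) hU
  have h2 : 27 ∣ Nat.card (centralizer ({m} : Set G) ⊓ N : Subgroup G) := L.cU ▸ card_dvd_of_le h1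
  have h3 : 2 ∣ Nat.card (centralizer ({m} : Set G) ⊓ N : Subgroup G) := by
    have h4 : t ∈ centralizer ({m} : Set G) ⊓ N := ⟨mem_centralizer_singleton_iff.mpr tm, ht⟩
    have h5 := orderOf_dvd_natCard (⟨t, h4⟩ : (centralizer ({m} : Set G) ⊓ N : Subgroup G))
    rwa [Subgroup.orderOf_mk, ot] at h5
  have h4 : 27 * 2 ∣ Nat.card (centralizer ({m} : Set G) ⊓ N : Subgroup G) :=
    Nat.Coprime.mul_dvd_of_dvd_of_dvd (by norm_num) h2 h3
  have h5 := Subgroup.eq_of_le_of_card_ge (H := centralizer ({m} : Set G) ⊓ N)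
    (K := centralizer ({m} : Set G)) inf_le_left (by
      rw [L.cC]; exact Nat.le_of_dvd Nat.card_pos h4)
  rw [← h5]
  exact inf_le_right

/-- an involution centralizing m and an element of U -/
theorem mem_zp_of_comm (H : Hyp G) {t v : G} (ot : orderOf t = 2) (tm : Commute t m) (hv : v ∈ U) (htv : Commute t v) :
    v ∈ zpowers m := by
  have htU : t ∉ U := by
    intro h1
    have := odd_of_mem27 L.cU h1
    rw [ot] at this
    exact absurd this (by decide)
  rcases H.c6 t m ot L.om tm v htv (L.hc v hv).symm with h1 | h1 | h1 | h1 | h1 | h1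
  · rw [h1]; exact one_mem _
  · rw [h1]; exact mem_zpowers m
  · rw [h1]; exact (zpowers m).mul_mem (mem_zpowers m) (mem_zpowers m)
  · exact absurd (h1 ▸ hv) htU
  · rw [h1] at hv
    exact absurd ((U.mul_mem_cancel_right L.mU).mp hv) htU
  · rw [h1] at hv
    exact absurd ((U.mul_mem_cancel_right (U.mul_mem L.mU L.mU)).mp hv) htU

/-- t acts as -1 on U/⟨m⟩ -/
theorem t_inv (H : Hyp G) {t y : G} (ot : orderOf t = 2) (tm : Commute t m) (hy : y ∈ U) :
    t * y * t⁻¹ * y ∈ zpowers m := by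
  have hx : t * y * t⁻¹ ∈ U := L.norm t tm.symm y hy
  have ht2 : t * t = 1 := by
    have := pow_orderOf_eq_one t
    rwa [ot, pow_two] at this
  have hti : t⁻¹ = t := by rw [inv_eq_iff_mul_eq_one]; exact ht2
  set x := t * y * t⁻¹ with hxd
  have htx : t * x * t⁻¹ = y := by
    rw [hxd, hti]
    calc t * (t * y * t) * t = (t * t) * y * (t * t) := by group
      _ = y := by rw [ht2, one_mul, mul_one]
  -- z with y * x = z * (x * y)
  have hz := L.comm_mem y hy x hx
  have h1 : t * (x * y) * t⁻¹ = (y * x * y⁻¹ * x⁻¹) * (x * y) := by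
    calc t * (x * y) * t⁻¹ = (t * x * t⁻¹) * (t * y * t⁻¹) := by group
      _ = y * x := by rw [htx]
      _ = _ := by group
  set z := y * x * y⁻¹ * x⁻¹ with hzd
  have hxy : x * y ∈ U := U.mul_mem hx hy
  have htz : t * z * t⁻¹ = z := by
    obtain ⟨k, hk⟩ := hz
    have h2 : Commute t (m ^ k) := tm.zpow_right k
    rw [show m ^ k = z from hk] at h2
    rw [h2.eq]; group
  have h2 : z * z = 1 := by
    have h3 : t * (t * (x * y) * t⁻¹) * t⁻¹ = x * y := by
      rw [hti]
      calc t * (t * (x * y) * t) * t = (t * t) * (x * y) * (t * t) := by group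
        _ = x * y := by rw [ht2, one_mul, mul_one]
    rw [h1] at h3
    have h4 : t * (z * (x * y)) * t⁻¹ = z * z * (x * y) := by
      calc t * (z * (x * y)) * t⁻¹ = (t * z * t⁻¹) * (t * (x * y) * t⁻¹) := by group
        _ = z * (z * (x * y)) := by rw [htz, h1]
        _ = _ := by group
    rw [h4] at h3
    exact mul_eq_right.mp h3
  have h3 : z = 1 := by
    rcases mem_zpowers3 L.om hz with h | h | h
    · exact h
    · exfalso
      rw [h] at h2
      have := orderOf_dvd_of_pow_eq_one (show m ^ 2 = 1 by rw [pow_two]; exact h2)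
      rw [L.om] at this; omega
    · exfalso
      rw [h] at h2
      have := orderOf_dvd_of_pow_eq_one (show m⁻¹ ^ 2 = 1 by rw [pow_two]; exact h2)
      rw [orderOf_inv, L.om] at this; omega
  rw [h3, one_mul] at h1
  exact L.mem_zp_of_comm H ot tm hxy (mul_inv_eq_iff_eq_mul.mp h1)

end Loc54

/-- elements of U commuting with b are powers of v -/
theorem PConf.fixed [Finite G] (H : Hyp G) {m v t b : G} {U : Subgroup G} (C : PConf m v t b U) {k : G} (hk : k ∈ U)
    (hbk : Commute b k) : k ∈ zpowers v := by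
  have h2 : zpowers v ≤ U ⊓ centralizer ({b} : Set G) := by
    rw [zpowers_le]; exact ⟨C.vU, commute_iff_mem.mpr C.bv⟩
  have h3 : Nat.card (U ⊓ centralizer ({b} : Set G) : Subgroup G) ∣ 27 := C.loc.cU ▸ card_dvd_of_le inf_le_left
  have h4 : Nat.card (U ⊓ centralizer ({b} : Set G) : Subgroup G) ∣ 48 := H.cinv b C.ob ▸ card_dvd_of_le inf_le_right
  have h5 : Nat.card (U ⊓ centralizer ({b} : Set G) : Subgroup G) ≤ 3 := by
    rcases div27 h3 with e | e | e | e <;> rw [e] at h4 ⊢ <;> omega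
  have h6 := Subgroup.eq_of_le_of_card_ge h2 (by rw [Nat.card_zpowers, C.ov]; exact h5)
  rw [h6]; exact ⟨hk, commute_iff_mem.mpr hbk⟩

theorem PConf.meets [Finite G] (H : Hyp G) {m v t b y : G} {U : Subgroup G} (C : PConf m v t b U) (hy : y ∈ U)
    {k : G} (hk : k ∈ U) (hky : Commute k y) (hk1 : k ≠ 1) (hbk : Commute b k) : y ∈ U ⊓ centralizer ({v} : Set G) := by
  refine ⟨hy, ?_⟩
  have h1 : Commute v y := by
    rcases mem_zpowers3 C.ov (C.fixed H hk hbk) with h | h | h
    · exact absurd h hk1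
    · rwa [h] at hky
    · rw [h] at hky
      have := hky.inv_left
      rwa [inv_inv] at this
  exact commute_iff_mem.mpr h1

theorem claimN [Finite G] (H : Hyp G) {m v w t b y : G} {U : Subgroup G} (C : PConf m v t b U) (C' : PConf m w t (t * b) U)
    (oy : orderOf y = 3) (cy : Nat.card (centralizer ({y} : Set G)) = 54) (hmy : Commute m y) :
    y ∈ U ⊓ centralizer ({v} : Set G) ∨ y ∈ U ⊓ centralizer ({w} : Set G) := by
  have L := C.loc
  have hyU : y ∈ U := L.mem y hmy (by rw [oy]; decide)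
  by_cases hyz : y ∈ zpowers m
  · left
    exact (zpowers_le.mpr C.mE) hyz
  have hmz : m ∉ zpowers y := by
    intro h
    apply hyz
    have heq : zpowers m = zpowers y := Subgroup.eq_of_le_of_card_ge ((zpowers_le).mpr h) (by
      rw [Nat.card_zpowers, Nat.card_zpowers, L.om, oy])
    rw [heq]; exact mem_zpowers y
  have hK9 := card_cent9 L.cU L.mU L.om L.hc L.hz hyU hyz
  have hmK : m ∈ U ⊓ centralizer ({y} : Set G) := ⟨L.mU, mem_centralizer_singleton_iff.mpr (L.hc y hyU).symm⟩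
  have hyK : y ∈ U ⊓ centralizer ({y} : Set G) := ⟨hyU, mem_centralizer_singleton_iff.mpr rfl⟩
  have hUN := le_norm9 L.cU (inf_le_left (a := U) (b := centralizer ({y} : Set G))) hK9
  have htinv := L.t_inv H C.ot C.tm hyU
  have htN : t ∈ normalizer ((U ⊓ centralizer ({y} : Set G) : Subgroup G) : Set G) := by
    apply mem_norm_of
    intro x hx
    have h1 : t * y * t⁻¹ ∈ U ⊓ centralizer ({y} : Set G) := by
      have h2 : t * y * t⁻¹ = (t * y * t⁻¹ * y) * y⁻¹ := by group
      rw [h2]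
      refine mul_mem ((zpowers_le.mpr hmK) htinv) (inv_mem hyK)
    obtain ⟨i, j, _, _, rfl⟩ := span9 hK9 hmK hyK L.om oy hmy hyz x hx
    have h3 : t * (m ^ i * y ^ j) * t⁻¹ = m ^ i * (t * y * t⁻¹) ^ j := by
      rw [conj_pow]
      have h4 : t * m ^ i = m ^ i * t := (C.tm.pow_right i).eq
      calc t * (m ^ i * y ^ j) * t⁻¹ = (t * m ^ i) * y ^ j * t⁻¹ := by group
        _ = m ^ i * t * y ^ j * t⁻¹ := by rw [h4]
        _ = _ := by group
    rw [h3]
    exact mul_mem (pow_mem hmK i) (pow_mem h1 j)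
  have hCN := L.cent_le hUN htN C.ot C.tm
  obtain ⟨V, hV⟩ := H.exists_loc oy cy
  have hleV : U ⊓ centralizer ({y} : Set G) ≤ V := by
    intro x hx
    exact hV.mem x (commute_iff_mem.mp hx.2) (odd_of_mem27 L.cU hx.1)
  have hVN := le_norm9 hV.cU hleV hK9
  set N := normalizer ((U ⊓ centralizer ({y} : Set G) : Subgroup G) : Set G) with hN
  have r3 : ∀ c ∈ zpowers m, RC N y (y * c) := by
    intro c hc
    obtain ⟨u, hu, huu⟩ := orb L.cU L.mU L.om L.hc L.hz hyU hyz hc
    exact ⟨u, hUN hu, huu⟩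
  have r4 : ∀ c ∈ zpowers m, RC N y⁻¹ (y⁻¹ * c) := by
    intro c hc
    obtain ⟨u, hu, huu⟩ := orb L.cU L.mU L.om L.hc L.hz (U.inv_mem hyU) (inv_notMem hyz) hc
    exact ⟨u, hUN hu, huu⟩
  have r5 : RC N m (m * y) := by
    obtain ⟨u, hu, huu⟩ := orb hV.cU hV.mU hV.om hV.hc hV.hz (hleV hmK) hmz (mem_zpowers y)
    exact ⟨u, hVN hu, huu⟩
  have r6 : RC N m y := by
    have h1 := r3 m (mem_zpowers m)
    rw [← hmy.eq] at h1
    exact r5.trans h1.symm
  have r7 : RC N y y⁻¹ := by
    have h1 : RC N y (t * y * t⁻¹) := ⟨t, htN, rfl⟩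
    have h2 : t * y * t⁻¹ = y⁻¹ * (t * y * t⁻¹ * y) := by
      have h3 := (L.comm_zp htinv (U.inv_mem hyU)).eq
      rw [← h3]; group
    rw [h2] at h1
    exact h1.trans (r4 _ htinv).symm
  have r8 : RC N m m⁻¹ := by
    have h1 : RC N m⁻¹ y⁻¹ := by
      obtain ⟨n, hn, hnm⟩ := r6
      exact ⟨n, hn, by rw [← hnm]; group⟩
    exact (r6.trans r7).trans h1.symm
  have hbN : b ∈ N := by
    obtain ⟨n, hn, hnm⟩ := r8
    have h1 : b⁻¹ * n ∈ centralizer ({m} : Set G) := by
      rw [mem_centralizer_singleton_iff]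
      have h2 : n * m * n⁻¹ = b * m * b⁻¹ := by rw [hnm, C.bm]
      calc b⁻¹ * n * m = b⁻¹ * (n * m * n⁻¹) * n := by group
        _ = b⁻¹ * (b * m * b⁻¹) * n := by rw [h2]
        _ = m * (b⁻¹ * n) := by group
    have h3 := hCN h1
    have h4 : b = n * (b⁻¹ * n)⁻¹ := by group
    rw [h4]
    exact mul_mem hn (inv_mem h3)
  have htbN : t * b ∈ N := mul_mem htN hbN
  rcases fix_or_inv C.ob (fun u hu => norm_mem hbN hu) with ⟨k, hk, hk1, hbk⟩ | hb
  · left
    exact C.meets H hyU hk.1 (mem_centralizer_singleton_iff.mp hk.2) hk1 hbk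
  rcases fix_or_inv C'.ob (fun u hu => norm_mem htbN hu) with ⟨k, hk, hk1, hbk⟩ | htb
  · right
    exact C'.meets H hyU hk.1 (mem_centralizer_singleton_iff.mp hk.2) hk1 hbk
  · exfalso
    apply hyz
    have h1 := hb y hyK
    have h2 := htb y hyK
    have h3 : t * y⁻¹ * t⁻¹ = y⁻¹ := by
      calc t * y⁻¹ * t⁻¹ = t * (b * y * b⁻¹) * t⁻¹ := by rw [h1]
        _ = (t * b) * y * (t * b)⁻¹ := by group
        _ = y⁻¹ := h2
    have h4 : Commute t y⁻¹ := mul_inv_eq_iff_eq_mul.mp h3
    have h5 := h4.inv_right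
    rw [inv_inv] at h5
    exact L.mem_zp_of_comm H C.ot C.tm hyU h5

end Cfsg.Agent.H67.L33
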