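import Cfsg.Agent.H67.L33.Loc10

set_option autoImplicit false

/-!
# Simple groups of order 5616: all data of the plane (helper67)
-/

namespace Cfsg.Agent.H67.L33

open Subgroup Cfsg

universe u

variable {G : Type u} [Group G]

/-- the points and lines of the plane as conjugates of two subgroups of order 9 -/
structure PL (E F : Subgroup G) : Prop where
  T : TI E
  T' : TI F
  hne : ∀ (A : CX E) (B : CX F), A.1 ≠ B.1
  comm : ∀ y y' : G, orderOf y = 3 → orderOf y' = 3 → Nat.card (centralizer ({y} : Set G)) = 54 →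
    Nat.card (centralizer ({y'} : Set G)) = 54 → Commute y y' →
    (∃ A : CX E, y ∈ A.1 ∧ y' ∈ A.1) ∨ (∃ B : CX F, y ∈ B.1 ∧ y' ∈ B.1)
  conn : ∀ A A' : CX E, ∃ B : CX F, A.1 ⊓ B.1 ≠ ⊥ ∧ A'.1 ⊓ B.1 ≠ ⊥
  conn' : ∀ B B' : CX F, ∃ A : CX E, A.1 ⊓ B.1 ≠ ⊥ ∧ A.1 ⊓ B'.1 ≠ ⊥

theorem conn13 : ∀ i i' : ZMod 13, ∃ j : ZMod 13, inB (i - j) ∧ inB (i' - j) := by decide +kernel
theorem conn13' : ∀ j j' : ZMod 13, ∃ i : ZMod 13, inB (i - j) ∧ inB (i - j') := by decide +kernel

theorem inc_smul {E F : Subgroup G} (g : G) (A : CX E) (B : CX F) :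
    (g • A).1 ⊓ (g • B).1 ≠ ⊥ ↔ A.1 ⊓ B.1 ≠ ⊥ := by
  rw [smul_val, smul_val, ← cj_inf, not_iff_not]
  constructor
  · intro h; exact cj_inj (h.trans (cj_bot g).symm)
  · intro h; rw [h, cj_bot]

theorem Hyp.exists_PL [Finite G] (H : Hyp G) : ∃ E F : Subgroup G, PL E F := by
  haveI := H.simple
  obtain ⟨m, v, w, t, b, U, C, C', hne⟩ := H.exists_pair
  have T := C.ti H
  have T' := C'.ti H
  have hne' : ∀ (A : CX (U ⊓ centralizer ({v} : Set G))) (B : CX (U ⊓ centralizer ({w} : Set G))), A.1 ≠ B.1 := by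
    rintro ⟨A, g, rfl⟩ ⟨B, h, rfl⟩ hAB
    change cj g _ = cj h _ at hAB
    have h1 : cj (h⁻¹ * g) (U ⊓ centralizer ({v} : Set G)) = U ⊓ centralizer ({w} : Set G) := by
      rw [cj_mul, hAB, ← cj_mul, inv_mul_cancel, cj_one]
    have hm1 : m ≠ 1 := by
      intro h2
      have := C.loc.om
      rw [h2, orderOf_one] at this; omega
    have h2 : (⟨cj (h⁻¹ * g) (U ⊓ centralizer ({v} : Set G)), _, rfl⟩ : CX (U ⊓ centralizer ({v} : Set G))) =
        ⟨U ⊓ centralizer ({v} : Set G), 1, (cj_one _).symm⟩ := by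
      apply T.eq_of_mem (x := m) _ C.mE hm1
      show m ∈ cj (h⁻¹ * g) _
      rw [h1]; exact C'.mE
    have h3 := congrArg Subtype.val h2
    change cj (h⁻¹ * g) _ = _ at h3
    exact hne (h3.symm.trans h1)
  obtain ⟨g0, hg0⟩ := exists_prime_orderOf_dvd_card' (G := G) 13 (by rw [H.card]; norm_num)
  obtain ⟨φ, ψ, hφ⟩ := exists_coord (T.card_CX H) (T'.card_CX H) (fun A B => A.1 ⊓ B.1 ≠ ⊥)
    (fun g A B => inc_smul g A B) (fun B => T.card_pts H T' hne' B)
    (fun A A' B B' hA h1 h2 h3 h4 => T.uniq H T' A A' B B' hA h1 h2 h3 h4)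
    (fun g hg A => T.no_fix H g hg A) (fun g hg B => T'.no_fix H g hg B) hg0
  refine ⟨_, _, T, T', hne', ?_, ?_, ?_⟩
  · intro y y' oy oy' cy cy' hyy
    obtain ⟨g, hg⟩ := H.conj_good C.loc.om oy C.loc.cC cy
    have h1 := commute_conj (g := g⁻¹) hyy
    have h2 : g⁻¹ * y * g⁻¹⁻¹ = m := by rw [← hg]; group
    rw [h2] at h1
    have h3 := claimN H C C' (by rw [order_conj, oy']) (by rw [card_cent_conj, cy']) h1
    rw [inv_inv] at h3
    rw [inv_inv] at h2
    rcases h3 with h3 | h3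
    · left
      refine ⟨⟨cj g _, g, rfl⟩, ?_, ?_⟩
      · show y ∈ cj g _
        rw [mem_cj, h2]; exact C.mE
      · show y' ∈ cj g _
        rw [mem_cj]; exact h3
    · right
      refine ⟨⟨cj g _, g, rfl⟩, ?_, ?_⟩
      · show y ∈ cj g _
        rw [mem_cj, h2]; exact C'.mE
      · show y' ∈ cj g _
        rw [mem_cj]; exact h3
  · intro A A'
    obtain ⟨j, h1, h2⟩ := conn13 (φ A) (φ A')
    refine ⟨ψ.symm j, ?_, ?_⟩
    · exact (hφ _ _).mpr (by rw [Equiv.apply_symm_apply]; exact h1)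
    · exact (hφ _ _).mpr (by rw [Equiv.apply_symm_apply]; exact h2)
  · intro B B'
    obtain ⟨i, h1, h2⟩ := conn13' (ψ B) (ψ B')
    refine ⟨φ.symm i, ?_, ?_⟩
    · exact (hφ _ _).mpr (by rw [Equiv.apply_symm_apply]; exact h1)
    · exact (hφ _ _).mpr (by rw [Equiv.apply_symm_apply]; exact h2)

/-- elements with centralizer of order 54 have order 3 -/
theorem Hyp.order_of_cent [Finite G] (H : Hyp G) {y : G} (cy : Nat.card (centralizer ({y} : Set G)) = 54) : orderOf y = 3 := by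
  have h1 : orderOf y ∣ 54 := cy ▸ orderOf_dvd_card_cent (Commute.refl y)
  have hle : ∀ k : ℕ, centralizer ({y} : Set G) ≤ centralizer ({y ^ k} : Set G) := by
    intro k x hx
    exact commute_iff_mem.mpr ((commute_iff_mem.mp hx).pow_left k)
  have h2 : ¬ 2 ∣ orderOf y := by
    rintro ⟨k, hk⟩
    have hk0 : k ≠ 0 := by rintro rfl; rw [mul_zero] at hk; rw [hk] at h1; norm_num at h1
    have h3 : orderOf (y ^ k) = 2 := by
      rw [orderOf_pow' _ hk0, hk, Nat.gcd_eq_right (dvd_mul_left k 2), Nat.mul_div_cancel _ (Nat.pos_of_ne_zero hk0)]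
    have h4 := card_dvd_of_le (hle k)
    rw [cy, H.cinv _ h3] at h4
    omega
  have h3 : orderOf y ∣ 27 := by
    have h4 : (orderOf y).Coprime 2 := by
      rw [Nat.coprime_comm, Nat.Prime.coprime_iff_not_dvd Nat.prime_two]; exact h2
    exact h4.dvd_of_dvd_mul_left (by rw [show 2 * 27 = 54 by norm_num]; exact h1)
  have hy1 : orderOf y ≠ 1 := by
    intro h
    have h4 := orderOf_eq_one_iff.mp h
    rw [h4] at cy
    have h5 : centralizer ({(1 : G)} : Set G) = ⊤ := by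
      rw [eq_top_iff]; intro x _; exact commute_iff_mem.mpr (Commute.one_left x)
    rw [h5, card_top, H.card] at cy
    omega
  obtain ⟨k, hk⟩ : 3 ∣ orderOf y := by
    rcases div27 h3 with e | e | e | e
    · exact absurd e hy1
    · rw [e]
    · rw [e]; norm_num
    · rw [e]; norm_num
  have hk0 : k ≠ 0 := by rintro rfl; rw [mul_zero] at hk; rw [hk] at h1; norm_num at h1
  have h5 : orderOf (y ^ k) = 3 := by
    rw [orderOf_pow' _ hk0, hk, Nat.gcd_eq_right (dvd_mul_left k 3), Nat.mul_div_cancel _ (Nat.pos_of_ne_zero hk0)]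
  have h6 := card_dvd_of_le (hle k)
  rw [cy] at h6
  have h7 : Nat.card (centralizer ({y ^ k} : Set G)) = 54 := by
    by_cases h : ∃ s : G, orderOf s = 2 ∧ Commute s (y ^ k)
    · obtain ⟨s, hs, hsy⟩ := h
      exact H.good_of_inv hs h5 hsy
    · push Not at h
      have h8 := h6.trans (H.cent_odd h5 h)
      omega
  have h8 : centralizer ({y} : Set G) = centralizer ({y ^ k} : Set G) :=
    Subgroup.eq_of_le_of_card_ge (hle k) (by rw [cy, h7])
  obtain ⟨U, L⟩ := H.exists_loc h5 h7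
  have hyU : y ∈ U := L.mem y (Commute.pow_left (Commute.refl y) k) (by
    rcases div27 h3 with e | e | e | e <;> rw [e] <;> decide)
  have h9 : y ∈ zpowers (y ^ k) := by
    apply L.hz y hyU
    intro x hx
    have h10 : x ∈ centralizer ({y ^ k} : Set G) := mem_centralizer_singleton_iff.mpr (L.hc x hx)
    rw [← h8] at h10
    exact mem_centralizer_singleton_iff.mp h10
  have h10 : orderOf y ∣ 3 := by
    rw [← h5, ← Nat.card_zpowers (y ^ k)]
    have := orderOf_dvd_natCard (⟨y, h9⟩ : zpowers (y ^ k))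
    rwa [Subgroup.orderOf_mk] at this
  have h11 := (Nat.dvd_prime Nat.prime_three).mp h10
  tauto

end Cfsg.Agent.H67.L33
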